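/- Slot G3 of the model of Omega8+(4): the commutator subgroup lies in JJ. -/
import Cfsg.Agent.H86.M8.Def

set_option autoImplicit false

namespace H80.M8G3

open H86.M8 H56 Subgroup
open H6 (F4)

theorem Lh_symm {i j : Fin 4} (h : i ≠ j) (p : S) : Lh i j p = Lh j i p :=
  O.ext fun x => funext fun k => by
    rw [Lh_apply h, Lh_apply h.symm]
    split_ifs with h1 h2
    · exact (h (h1.symm.trans h2)).elim
    all_goals rfl

theorem ka_Lh {i j k : Fin 4} (h : i ≠ j) (hi : i ≠ k) (hj : j ≠ k) (p : S) :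
    ka k * Lh i j p * ka k = Lh i j p :=
  O.ext fun x => funext fun l => by
    simp only [O.mul_apply, ka_apply, Lh_apply h, if_neg hi, if_neg hj]
    by_cases h1 : l = k
    · subst h1
      simp [hi.symm, hj.symm]
    · simp [h1]

theorem ka_ka {i j : Fin 4} (h : i ≠ j) : ka i * ka j = Lh i j sS * Rh i j sS :=
  O.ext fun x => funext fun l => by
    simp only [O.mul_apply, ka_apply, Lh_apply h, Rh_apply h, sS, if_true, if_neg h.symm]
    by_cases h1 : l = i
    · subst h1
      simp [h]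
    · by_cases h2 : l = j
      · subst h2
        simp [h1]
      · simp [h1, h2]

theorem kk_mem (i j : Fin 4) : ka i * ka j ∈ JJ := by
  by_cases h : i = j
  · rw [h, ka_sq]; exact one_mem _
  · rw [ka_ka h]; exact mul_mem (Lh_mem _ _ _) (Rh_mem _ _ _)

theorem conj_L (k i j : Fin 4) (p : S) : ka k * Lh i j p * ka k ∈ JJ := by
  by_cases h : i = j
  · rw [h, Lh_self, MonoidHom.one_apply, mul_one, ka_sq]; exact one_mem _
  by_cases hj : j = k
  · rw [← hj, ← Rh_eq]; exact Rh_mem _ _ _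
  by_cases hi : i = k
  · rw [← hi, Lh_symm h, ← Rh_eq]; exact Rh_mem _ _ _
  · rw [ka_Lh h hi hj]; exact Lh_mem _ _ _

theorem conj_mem (k : Fin 4) {g : O Q} (hg : g ∈ JJ) : ka k * g * ka k ∈ JJ := by
  induction hg using closure_induction with
  | mem g hg =>
    obtain ⟨i, j, p, rfl | rfl⟩ := hg
    · exact conj_L _ _ _ _
    · have e : ka k * Rh i j p * ka k = ka k * ka j * Lh i j p * (ka j * ka k) := by
        rw [Rh_eq]; simp only [mul_assoc]
      rw [e]
      exact mul_mem (mul_mem (kk_mem _ _) (Lh_mem _ _ _)) (kk_mem _ _)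
  | one => rw [mul_one, ka_sq]; exact one_mem _
  | mul a b _ _ ha hb =>
    have e : ka k * (a * b) * ka k = ka k * a * ka k * (ka k * b * ka k) := by
      calc _ = ka k * a * (ka k * ka k) * b * ka k := by rw [ka_sq]; simp only [mul_assoc, one_mul]
        _ = _ := by simp only [mul_assoc]
    rw [e]; exact mul_mem ha hb
  | inv a _ ha =>
    have e : ka k * a⁻¹ * ka k = (ka k * a * ka k)⁻¹ := by
      simp only [mul_inv_rev, ka_inv, mul_assoc]
    rw [e]; exact inv_mem ha

theorem ka_norm (k : Fin 4) : ka k ∈ normalizer (JJ : Set (O Q)) :=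
  mem_normalizer_iff.2 fun g => ⟨fun h => by rw [ka_inv]; exact conj_mem k h, fun h => by
    have := conj_mem k h
    rwa [ka_inv, show ka k * (ka k * g * ka k) * ka k = ka k * ka k * g * (ka k * ka k) by
      simp only [mul_assoc], ka_sq, one_mul, mul_one] at this⟩

theorem refl_eq (h : G2) {v : V} (hv : Q v ≠ 0) : ∃ g ∈ JJ, refl Q v = g⁻¹ * ka 0 * g := by
  obtain ⟨g, hg, s, hs, e⟩ := h v hv
  refine ⟨g, hg, ?_⟩
  rw [ka, ← refl_smul hs (Pi.single 0 1), ← e, ← conj_refl]
  group

theorem jG3 : H86.M8.G3 := fun h => by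
  have hN : JJ.Normal := normalizer_eq_top_iff.1 (eq_top_of_refl_mem nd nexc fun v hv => by
    obtain ⟨g, hg, e⟩ := refl_eq h hv
    rw [e]
    exact mul_mem (mul_mem (inv_mem (le_normalizer hg)) (ka_norm 0)) (le_normalizer hg))
  refine commutator_le_of_sq_mem nd nexc JJ fun u v hu hv => ?_
  obtain ⟨g, hg, e⟩ := refl_eq h hu
  obtain ⟨g', hg', e'⟩ := refl_eq h hv
  have k : refl Q u * refl Q v ∈ JJ := by
    have e2 : refl Q u * refl Q v = g⁻¹ * (ka 0 * (g * g'⁻¹) * ka 0) * g' := by
      rw [e, e']; simp only [mul_assoc]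
    rw [e2]
    exact mul_mem (mul_mem (inv_mem hg) (conj_mem 0 (mul_mem hg (inv_mem hg')))) hg'
  exact mul_mem k k

end H80.M8G3
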