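/- Tower SIM, chapter OUT, slot O. -/
import Cfsg.Agent.H58.SOSpec

set_option autoImplicit false

namespace H80.SimO

open Subgroup Cfsg H98 Matrix H0.Sim H58.SO
open scoped commutatorElement

variable {ι : Type} [Fintype ι] [DecidableEq ι] {F : Type} [Field F] {Q : (ι → F) → F}

theorem mem_iso {g : GL ι F} :
    g ∈ isometryGroup F Q ↔ ∀ v, Q ((g : Matrix ι ι F) *ᵥ v) = Q v :=
  ⟨fun h v => h v v, fun h v _ => h v⟩

theorem same {g h : GL ι F} {c : F} (hc : c ≠ 0) (k : ∀ v, Q ((g : Matrix ι ι F) *ᵥ v) = c * Q v)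
    (k' : ∀ v, Q ((h : Matrix ι ι F) *ᵥ v) = c * Q v) : g⁻¹ * h ∈ isometryGroup F Q :=
  mem_iso.2 fun v => mul_left_cancel₀ hc (by
    rw [← k, mulVec_mulVec, ← Units.val_mul, mul_inv_cancel_left, k'])

theorem iso_le : isometryGroup F Q ≤ Geo.quadSimilarityGroup (F := F) Q := fun _ h =>
  ⟨1, fun v => by rw [mem_iso.1 h, Units.val_one, one_mul]⟩

theorem sim_le : Geo.quadSimilarityGroup (F := F) Q ≤ normalizer (isometryGroup F Q : Set (GL ι F)) := by
  have k : ∀ g ∈ Geo.quadSimilarityGroup (F := F) Q, ∀ s ∈ isometryGroup F Q,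
      g⁻¹ * s * g ∈ isometryGroup F Q := by
    rintro g ⟨c, hc⟩ s hs
    rw [mul_assoc]
    exact same c.ne_zero hc fun v => by rw [Units.val_mul, ← mulVec_mulVec, mem_iso.1 hs, hc]
  intro g hg
  refine mem_normalizer_iff.2 fun s => ⟨fun hs => ?_, fun hs => ?_⟩
  · simpa only [inv_inv] using k _ (inv_mem hg) s hs
  · simpa [mul_assoc] using k _ hg _ hs

theorem jobO : JobO := by
  intro ι _ _ F _ _ Q
  refine ⟨fun h => ?_, ?_⟩
  · refine hc_proj _ ((inclusion iso_le).comp (Omega F Q).subtype)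
      ((inclusion_injective iso_le).comp (subtype_injective _)) ⟨?_⟩ h
    rintro _ ⟨a, rfl⟩ g
    have : (g : GL ι F) * ((a : isometryGroup F Q) : GL ι F) * g⁻¹ ∈
        (Omega F Q).map (isometryGroup F Q).subtype := by
      rw [map_subtype_commutator]
      exact conj_mem_of_mem_normalizer (le_normalizer_commutator sim_le sim_le g.2)
        (by rw [← map_subtype_commutator]; exact ⟨_, a.2, rfl⟩)
    obtain ⟨b, hb, e⟩ := this
    exact ⟨⟨b, hb⟩, Subtype.ext e⟩
  · refine (Nat.card_le_card_of_surjective _ QuotientGroup.mk_surjective).trans ?_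
    choose c hc using fun g : Geo.quadSimilarityGroup (F := F) Q => g.2
    let s := Function.invFun c
    have e : ∀ g, c (s (c g)) = c g := fun g => Function.invFun_eq ⟨g, rfl⟩
    have := Nat.card_le_card_of_injective (fun g => ((c g, ⟨(s (c g) : GL ι F)⁻¹ * g,
      same (c g).ne_zero (fun v => by rw [hc, e]) (hc g)⟩) : Fˣ × isometryGroup F Q))
      fun g h k => by
        have k1 : c g = c h := congrArg Prod.fst k
        have k2 : (s (c g) : GL ι F)⁻¹ * g = (s (c h) : GL ι F)⁻¹ * h :=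
          congrArg (fun x => (x.2 : GL ι F)) k
        rw [k1] at k2
        exact Subtype.ext (mul_left_cancel k2)
    rwa [Nat.card_prod, Nat.card_units, Nat.card_eq_fintype_card (α := F)] at this

end H80.SimO
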