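/- Slot DA of the tower RC. -/
import Cfsg.Agent.H52.RCSpec

set_option autoImplicit false

namespace H80.RCDA

open H52.RC Subgroup

universe u

theorem jobDA : JobDA.{u} := by
  intro ka _ dj dp G _ _ L _ Q a b C c cQ rc c2 d dQ da db e
  obtain ⟨a4, p2, p3, p4, p5, -⟩ := dp G L Q a b C
  obtain ⟨-, -, -, k4, k5, -⟩ := ka G
  have QL := C.syl.1
  have hz := (mem_Zc.1 C.ha.2.2.1).2
  have zz : a ^ 2 * a ^ 2 = 1 := by rw [← pow_add]; exact a4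
  have zi : (a ^ 2)⁻¹ = a ^ 2 := inv_eq_of_mul_eq_one_right zz
  have no : ∀ {x : G}, d * x * d⁻¹ = x * a ^ 2 → ¬ Commute d x := fun {x} h k => by
    rw [k.eq, mul_inv_cancel_right, left_eq_mul] at h
    exact C.a2 h
  have q2 := (k5 Q).1 C.syl.2.1
  rcases p2 c cQ with ca | ⟨-, ta⟩
  · have h1 := (p5 c cQ ca (C.ng c rc ca) rc.2.2.1).2
    have h2 := p4 _ (QL (mul_mem (inv_mem C.aQ) cQ)) ((Commute.refl a).inv_left.mul_left ca) h1 (by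
      rw [ca.symm.inv_left.mul_pow, c2, inv_pow, inv_mul_cancel])
    have h3 := da.mul_right ((mem_Zc.1 h2).2 d (QL dQ))
    rw [mul_inv_cancel_left] at h3
    exact no e h3
  obtain ⟨t, ht⟩ : ∃ t, t = b⁻¹ * c := ⟨_, rfl⟩
  rw [← ht] at ta
  have tQ : t ∈ Q := ht ▸ mul_mem (inv_mem C.bQ) cQ
  have dt : d * t * d⁻¹ = t * a ^ 2 := by
    calc _ = d * b⁻¹ * d⁻¹ * (d * c * d⁻¹) := by rw [ht]; group
      _ = _ := by rw [e, db.inv_right.eq, ht]; group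
  have tz := hz t (QL tQ)
  have bt : b * t * b⁻¹ * b ^ 2 * t = a ^ 2 := by rw [← c2, ht, pow_two, pow_two]; group
  rcases p3 with b2 | b2
  swap
  · refine no dt (dj G L Q a b C t tQ ta ?_ d dQ da)
    rw [b2, mul_assoc, ← tz.eq, ← mul_assoc, mul_eq_right] at bt
    exact eq_inv_of_mul_eq_one_left bt
  have bt' : b * t * b⁻¹ = a ^ 2 * t⁻¹ := by rw [← bt, b2]; group
  have iv : Inv (d * b) t := by
    unfold H52.RC.Inv
    calc _ = d * (b * t * b⁻¹) * d⁻¹ := by group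
      _ = d * a ^ 2 * d⁻¹ * (d * t * d⁻¹)⁻¹ := by rw [bt']; group
      _ = _ := by rw [dt, (hz d (QL dQ)).eq]; group
  have dbL := QL (mul_mem dQ C.bQ)
  obtain ⟨k, k1, k2⟩ := k4 (Zc L) t (q2 t tQ) fun h => no dt ((mem_Zc.1 h).2 d (QL dQ))
  have rg : RG L (t ^ 2 ^ k) := ⟨pow_mem (QL tQ) _, k1, k2, _, dbL, iv.pow _⟩
  rcases k with _ | k
  swap
  · refine no dt (C.f4 t (QL tQ) (q2 t tQ) ⟨_, iv⟩ _ rg d (q2 d dQ) ?_)
    rw [pow_succ', pow_mul]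
    refine Commute.pow_right (mul_inv_eq_iff_eq_mul.1 ?_) _
    rw [← conj_pow, dt, tz.mul_pow, pow_two (a ^ 2), zz, mul_one]
  rw [pow_zero, pow_one] at rg k2
  obtain ⟨h1, h2⟩ := p5 t tQ ta (C.ng t rg ta) k2
  have t2 : t ^ 2 = 1 := by
    rw [bt', tz.eq, mul_right_inj] at h1
    rw [pow_two]
    exact mul_eq_one_iff_inv_eq.2 h1
  have e2 : (a⁻¹ * t) ^ 2 = a ^ 2 := by rw [ta.symm.inv_left.mul_pow, t2, mul_one, inv_pow, zi]
  have de : d * (a⁻¹ * t) * d⁻¹ = a⁻¹ * t * a ^ 2 := by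
    calc _ = d * a⁻¹ * d⁻¹ * (d * t * d⁻¹) := by group
      _ = _ := by rw [dt, da.inv_right.eq]; group
  refine C.ng (a⁻¹ * t) ⟨QL (mul_mem (inv_mem C.aQ) tQ),
    fun h => no de ((mem_Zc.1 h).2 d (QL dQ)), e2 ▸ C.ha.2.2.1, d, QL dQ, ?_⟩
    ((Commute.refl a).inv_left.mul_left ta) h2
  unfold H52.RC.Inv
  rw [de, ← zi, ← e2, pow_two, mul_inv_rev (a⁻¹ * t), mul_inv_cancel_left]

end H80.RCDA
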